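import Cfsg.Agent.H477.HC.N8
import Cfsg.Agent.H722.HC.IsoCh

/-!
# `Ω⁻₈(3)` : a character of degree divisible by `15` (helper722, for S4984)
-/

set_option autoImplicit false

open scoped ComplexConjugate
open Cfsg

namespace Cfsg.Agent.H722.HC

open Cfsg.Agent.OddOrderCharacters.Clifford Cfsg.Agent.Characters MulAction Module Cfsg.Agent.H53.HC
open Cfsg.Agent.H477.HC Cfsg.Agent.H477.HC.CForm Cfsg.Agent.H749.Two

universe u v w x

/-- a constituent of a rank 3 permutation character is rational -/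
theorem rat_of_sum {G : Type u} [Group G] [Finite G] {Y : Type v} [MulAction G Y] {ψ₁ ψ₂ : G → ℂ}
    (h1 : IsIrrCharacter G ψ₁) (h2 : IsIrrCharacter G ψ₂)
    (hsum : ∀ g : G, (Nat.card {y : Y // g • y = y} : ℂ) = 1 + ψ₁ g + ψ₂ g) {a b : ℕ} (ha : ψ₁ 1 = a) (hb : ψ₂ 1 = b)
    (hab : a ≠ b) (ha1 : a ≠ 1) (g : G) : ∃ q : ℚ, ψ₁ g = q := by
  classical
  have := Fintype.ofFinite G
  refine GaloisBasic.exists_rat_of_forall_ringEquiv
    (GaloisBasic.isIntegral_apply (Core.isIrr_isCharacter h1) g).tower_top fun σ => ?_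
  have hσ1 : IsIrrCharacter G (fun g => σ (ψ₁ g)) := GaloisIrr.isIrr_map σ h1
  have hσ2 : IsIrrCharacter G (fun g => σ (ψ₂ g)) := GaloisIrr.isIrr_map σ h2
  have key : (fun g => σ (ψ₁ g)) = ψ₁ := by
    by_contra hne
    have d1 : (fun g => σ (ψ₁ g)) ≠ (1 : G → ℂ) := by
      intro h
      have h3 : σ (ψ₁ 1) = 1 := congrFun h 1
      rw [ha, map_natCast] at h3
      exact ha1 (by exact_mod_cast h3)
    have d2 : (fun g => σ (ψ₁ g)) ≠ ψ₂ := by
      intro h
      have h3 : σ (ψ₁ 1) = ψ₂ 1 := congrFun h 1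
      rw [ha, map_natCast, hb] at h3
      exact hab (by exact_mod_cast h3)
    have e : (1 : G → ℂ) + (fun g => σ (ψ₁ g)) + (fun g => σ (ψ₂ g)) = (1 : G → ℂ) + ψ₁ + ψ₂ := by
      funext g
      have h3 := congrArg σ (hsum g)
      rw [map_natCast, map_add, map_add, map_one, hsum] at h3
      exact h3.symm
    have i1 : classInner (fun g => σ (ψ₁ g)) ((1 : G → ℂ) + ψ₁ + ψ₂) = 0 := by
      rw [Core.classInner_add_right, Core.classInner_add_right, Core.classInner_irr_ne hσ1 Core.isIrr_one d1,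
        Core.classInner_irr_ne hσ1 h1 hne, Core.classInner_irr_ne hσ1 h2 d2]
      ring
    obtain ⟨n, hn⟩ := Core.classInner_isNat (Core.isIrr_isCharacter hσ1) (Core.isIrr_isCharacter hσ2)
    rw [← e, Core.classInner_add_right, Core.classInner_add_right, Core.classInner_irr_ne hσ1 Core.isIrr_one d1,
      Core.classInner_irr_self hσ1, hn] at i1
    rw [zero_add] at i1
    have i3 : 1 + n = 0 := by exact_mod_cast i1
    omega
  exact congrFun key g

/-- the nontrivial linear character of a group of order two -/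
theorem exists_sign {G : Type u} [Group G] (h : Nat.card G = 2) :
    ∃ c : G →* ℂˣ, c ≠ 1 ∧ ∀ A, ∃ q : ℚ, ((c A : ℂˣ) : ℂ) = q := by
  classical
  obtain ⟨y, hy, hu⟩ := (Nat.card_eq_two_iff' (1 : G)).1 h
  have hyy : y * y = 1 := by
    by_contra h1
    have h2 := hu _ h1
    exact hy (mul_eq_left.1 h2)
  have h3 : ∀ A : G, A = 1 ∨ A = y := fun A => by
    by_cases hA : A = 1
    · exact Or.inl hA
    · exact Or.inr (hu A hA)
  refine ⟨{ toFun := fun A => if A = 1 then 1 else -1, map_one' := if_pos rfl, map_mul' := fun A B => ?_ },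
    fun hc => ?_, fun A => ?_⟩
  · rcases h3 A with rfl | rfl
    · rw [one_mul, if_pos rfl, one_mul]
    · rcases h3 B with rfl | rfl
      · rw [mul_one, if_pos rfl, mul_one]
      · rw [hyy, if_pos rfl, if_neg hy]
        simp
  · have h4 := DFunLike.congr_fun hc y
    change (if y = 1 then (1 : ℂˣ) else -1) = 1 at h4
    rw [if_neg hy] at h4
    have h5 : ((-1 : ℂˣ) : ℂ) = ((1 : ℂˣ) : ℂ) := by rw [h4]
    norm_num at h5
  · change ∃ q : ℚ, (((if A = 1 then (1 : ℂˣ) else -1) : ℂˣ) : ℂ) = q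
    by_cases hA : A = 1
    · exact ⟨1, by rw [if_pos hA]; simp⟩
    · exact ⟨-1, by rw [if_neg hA]; simp⟩

theorem inv_of_two {G : Type u} [Group G] (h : Nat.card G = 2) {φ : G →* G} (hφ : ∀ A, φ (φ A) = A)
    {c : G →* ℂˣ} (A : G) : c (φ A) = c A := by
  obtain ⟨y, hy, hu⟩ := (Nat.card_eq_two_iff' (1 : G)).1 h
  by_cases hA : A = 1
  · rw [hA, map_one]
  · have h1 : φ A ≠ 1 := fun h1 => hA (by rw [← hφ A, h1, map_one])
    rw [hu _ h1, hu _ hA]

section k1

variable {K : Type u} [Field K] {V : Type v} [AddCommGroup V] [Module K V] {F : CForm K V}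
  {X : Type w} [AddCommGroup X] [Module K X] {F' : CForm K X} {e f : Fin 1 → V} {j : X →ₗ[K] V}

theorem isCusp_fin1 (c : GL (Fin 1) K →* ℂˣ) : IsCusp (cfun c) := by
  intro D h0 h1
  exfalso
  have h2 : 0 < finrank K D := Module.finrank_pos_iff.2 (Submodule.nontrivial_iff_ne_bot.2 h0)
  have h3 : finrank K D < finrank K (Fin 1 → K) := Submodule.finrank_lt h1
  rw [Module.finrank_fin_fun] at h3
  omega

theorem dec1 [FiniteDimensional K V] (h : Frm F F' e f j) (hε : F.ε = 1) (v : V) :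
    ∃ x, v = F.B v (f 0) • e 0 + F.B v (e 0) • f 0 + j x := by
  have h1 := h.hyp
  have hfe : F.B (f 0) (e 0) = 1 := by rw [h.hfe, if_pos rfl, hε]
  obtain ⟨x, hx⟩ := h1.dec (v - F.B v (f 0) • e 0 - F.B v (e 0) • f 0) (by
    rw [F.B_sub_left, F.B_sub_left, F.B_smul_left, F.B_smul_left, h.hee, hfe]
    ring) (by
    rw [F.B_sub_left, F.B_sub_left, F.B_smul_left, F.B_smul_left, h.hff, h.hef, if_pos rfl]
    ring)
  exact ⟨x, by rw [← hx]; abel⟩

theorem ext1 [FiniteDimensional K V] (h : Frm F F' e f j) (hε : F.ε = 1) {g g' : F.iso}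
    (he : (g : V ≃ₗ[K] V) (e 0) = (g' : V ≃ₗ[K] V) (e 0)) (hf : (g : V ≃ₗ[K] V) (f 0) = (g' : V ≃ₗ[K] V) (f 0))
    (hj : ∀ x, (g : V ≃ₗ[K] V) (j x) = (g' : V ≃ₗ[K] V) (j x)) : g = g' := by
  apply Subtype.ext
  apply LinearEquiv.ext
  intro v
  obtain ⟨x, hx⟩ := dec1 h hε v
  rw [hx, map_add, map_add, map_smul, map_smul, map_add, map_add, map_smul, map_smul, he, hf, hj]

theorem glue1 [FiniteDimensional K V] [FiniteDimensional K X] (h : Frm F F' e f j) (hσ : F.σ = F'.σ) (b : F'.iso) :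
    ∃ g : F.iso, (g : V ≃ₗ[K] V) (e 0) = e 0 ∧ (g : V ≃ₗ[K] V) (f 0) = f 0 ∧
      ∀ x, (g : V ≃ₗ[K] V) (j x) = j ((b : X ≃ₗ[K] X) x) := by
  obtain ⟨r, hr, hrj, hrW⟩ := (h.cmp hσ).exists_proj
  have hre : r (e 0) = 0 := hrW _ (Submodule.subset_span ⟨0, rfl⟩)
  have hrf : r (f 0) = 0 := F'.nondeg _ fun y => F'.B_eq_zero (by rw [← hr]; exact h.hjf y 0)
  have hjr : ∀ v y, F.B (j y) (v - j (r v)) = 0 := by
    intro v y
    rw [F.B_sub_right, hr, h.hjB, sub_self]
  have hjr' : ∀ v y, F.B (v - j (r v)) (j y) = 0 := fun v y => F.B_eq_zero (hjr v y)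
  let m : V →ₗ[K] V := (LinearMap.id - j.comp r) + j.comp (((b : X ≃ₗ[K] X) : X →ₗ[K] X).comp r)
  have hm : ∀ v, m v = (v - j (r v)) + j ((b : X ≃ₗ[K] X) (r v)) := fun v => rfl
  obtain ⟨g, hg⟩ := F.exists_iso m (fun v u => by
      have e1 : F.B v u = F.B ((v - j (r v)) + j (r v)) ((u - j (r u)) + j (r u)) := by
        rw [sub_add_cancel, sub_add_cancel]
      rw [hm, hm, e1, F.B_add_left, F.B_add_right, F.B_add_right, F.B_add_left, F.B_add_right, F.B_add_right,
        hjr', hjr, hjr', hjr, h.hjB, h.hjB, F'.iso_B])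
    (fun v => by
      have e1 : F.Q v = F.Q ((v - j (r v)) + j (r v)) := by rw [sub_add_cancel]
      rw [hm, e1, F.Q_add, F.Q_add, hjr', hjr', h.hjQ, h.hjQ, F'.iso_Q])
  refine ⟨g, ?_, ?_, fun x => ?_⟩
  · rw [hg, hm, hre, map_zero, map_zero, map_zero, sub_zero, add_zero]
  · rw [hg, hm, hrf, map_zero, map_zero, map_zero, sub_zero, add_zero]
  · rw [hg, hm, hrj, sub_self, zero_add]

/-- the order of the unipotent radical, `k = 1` -/
theorem card_Us1 [FiniteDimensional K V] (h : Frm F F' e f j) (hε : F.ε = 1) (hσ : ∀ x, F.σ x = x)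
    (hT : ∀ x, F.T x = x) : Nat.card (Us F e) = Nat.card X := by
  classical
  have hjinj : Function.Injective j := h.hyp.inj
  have hfe : F.B (f 0) (e 0) = 1 := by rw [h.hfe, if_pos rfl, hε]
  have hfin : ∀ i : Fin 1, i = 0 := fun i => Subsingleton.elim _ _
  have hQ : ∀ (s : K) (x : X), F.Q (f 0 + j x + s • e 0) = F'.Q x + s := by
    intro s x
    rw [F.Q_add, F.Q_add, F.Q_smul, h.hQf, h.hQe, h.hjQ, hT, hT, F.B_smul_right, F.B_add_left, hfe, hσ,
      F.B_eq_zero (h.hjf x 0), h.hje]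
    ring
  have hU : ∀ x : X, ∃ u : Us F e, ((u : F.iso) : V ≃ₗ[K] V) (f 0) = f 0 + j x + (-F'.Q x) • e 0 := by
    intro x
    have hq : F.Q (f 0 + j x + (-F'.Q x) • e 0) = 0 := by rw [hQ]; ring
    obtain ⟨u, hu1, hu2, hu3⟩ := h.exists_unip (y := fun _ => f 0 + j x + (-F'.Q x) • e 0) (fun i l => by
        rw [hfin i, hfin l, if_pos rfl, F.B_add_right, F.B_add_right, F.B_smul_right, h.hef, if_pos rfl,
          F.B_eq_zero (h.hje x 0), h.hee]
        ring)
      (fun i l => F.alt _ hq) (fun i => hq)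
    refine ⟨⟨u, fun i => hu1 i, fun v hv => ?_⟩, hu2 0⟩
    rw [hu3 v hv, sub_sub_cancel_left]
    refine Submodule.neg_mem _ (Submodule.sum_mem _ fun i _ => Submodule.smul_mem _ _ (Submodule.subset_span ⟨i, rfl⟩))
  choose U hU using hU
  refine (Nat.card_congr (Equiv.ofBijective U ⟨fun x y hxy => ?_, fun u => ?_⟩)).symm
  · have h1 := hU x
    rw [hxy, hU y] at h1
    apply hjinj
    have h2 : ∀ z : X, F.B (j z) (j y) = F.B (j z) (j x) := by
      intro z
      have h3 := congrArg (fun v => F.B (j z) v) h1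
      simp only [F.B_add_right, F.B_smul_right, h.hjf, h.hje] at h3
      simpa using h3
    have h4 : y = x := by
      rw [← sub_eq_zero]
      refine F'.nondeg _ fun z => F'.B_eq_zero ?_
      rw [F'.B_sub_right, ← h.hjB, ← h.hjB, h2, sub_self]
    rw [h4]
  · obtain ⟨x, hx⟩ := dec1 h hε (((u : F.iso) : V ≃ₗ[K] V) (f 0))
    have h1 : F.B (((u : F.iso) : V ≃ₗ[K] V) (f 0)) (e 0) = 1 := by
      nth_rewrite 1 [← Us_e u.2 0]
      rw [F.iso_B, hfe]
    rw [h1, one_smul] at hx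
    have h2 : F.Q (((u : F.iso) : V ≃ₗ[K] V) (f 0)) = 0 := by rw [F.iso_Q, h.hQf]
    have h3 : ((u : F.iso) : V ≃ₗ[K] V) (f 0) = f 0 + j x + F.B (((u : F.iso) : V ≃ₗ[K] V) (f 0)) (f 0) • e 0 := by
      nth_rewrite 1 [hx]
      abel
    have h4 : F.B (((u : F.iso) : V ≃ₗ[K] V) (f 0)) (f 0) = -F'.Q x := by
      have h5 := hQ (F.B (((u : F.iso) : V ≃ₗ[K] V) (f 0)) (f 0)) x
      rw [← h3, h2] at h5
      linear_combination h5.symm
    rw [h4] at h3
    refine ⟨x, ?_⟩
    have h5 : (U x : F.iso)⁻¹ * u = 1 := by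
      refine h.Us_eq_one ((Us F e).mul_mem ((Us F e).inv_mem (U x).2) u.2) fun i => ?_
      rw [hfin i, mul_apply', h3, ← hU x, inv_apply']
      exact Submodule.subset_span ⟨0, rfl⟩
    exact Subtype.ext (inv_mul_eq_one.1 h5)

end k1

/-- an element of order `7` on `F₃⁶` has no fixed vector -/
theorem fix_zero {K : Type u} [Field K] [Finite K] {X : Type w} [AddCommGroup X] [Module K X] [Finite X]
    (hK : Nat.card K = 3) (hX : Nat.card X = 3 ^ 6) {b : X ≃ₗ[K] X} (hb : orderOf b = 7) {x : X} (hx : b x = x) :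
    x = 0 := by
  classical
  have : Fact (Nat.Prime 7) := ⟨by norm_num⟩
  have hfd : FiniteDimensional K X := Module.Finite.of_finite
  let W : Submodule K X := LinearMap.ker ((b : X →ₗ[K] X) - LinearMap.id)
  have hW : ∀ x, x ∈ W ↔ b x = x := fun x => by
    rw [LinearMap.mem_ker, LinearMap.sub_apply, sub_eq_zero]
    rfl
  have h1 : IsPGroup 7 (Subgroup.zpowers b) := IsPGroup.of_card (n := 1) (by rw [Nat.card_zpowers, hb, pow_one])
  have h2 := h1.card_modEq_card_fixedPoints X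
  have h3 : Nat.card (fixedPoints (Subgroup.zpowers b) X) = Nat.card W := by
    refine Nat.card_congr (Equiv.subtypeEquivRight fun x => ?_)
    rw [hW]
    constructor
    · intro h
      exact h ⟨b, Subgroup.mem_zpowers b⟩
    · rintro h ⟨g, hg⟩
      obtain ⟨n, rfl⟩ := Subgroup.mem_zpowers_iff.1 hg
      change (b ^ n) x = x
      have h4 : b ∈ MulAction.stabilizer (X ≃ₗ[K] X) x := h
      exact Subgroup.zpow_mem _ h4 n
  have h4 : Nat.card W = 3 ^ finrank K W := by rw [Module.natCard_eq_pow_finrank (K := K), hK]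
  have h5 : finrank K X = 6 := by
    have h6 := Module.natCard_eq_pow_finrank (K := K) (V := X)
    rw [hX, hK] at h6
    exact (Nat.pow_right_injective (le_refl 2 |>.trans (by norm_num)) h6).symm
  have h6 : finrank K W ≤ 6 := h5 ▸ Submodule.finrank_le W
  rw [h3, h4, hX] at h2
  obtain ⟨i, hi⟩ : ∃ i, i = finrank K W := ⟨_, rfl⟩
  rw [← hi] at h2 h6
  have h7 : i = 0 ∨ i = 6 := by
    revert h2
    interval_cases i <;> decide
  rcases h7 with h7 | h7
  · rw [hi, finrank_eq_zero_iff_of_free] at h7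
    have h8 := (hW x).2 hx
    exact congrArg Subtype.val (Subsingleton.elim (⟨x, h8⟩ : W) 0)
  · exfalso
    have h8 : W = ⊤ := Submodule.eq_top_of_finrank_eq (by rw [← hi, h7, h5])
    have h9 : b = 1 := by
      apply LinearEquiv.ext
      intro y
      exact (hW y).1 (by rw [h8]; trivial)
    rw [h9, orderOf_one] at hb
    norm_num at hb

section main

variable (K : Type u) [Field K] [Finite K] (a b : K)
  (hab : ∀ z₁ z₂ : K, z₁ ^ 2 + a * z₁ * z₂ + b * z₂ ^ 2 = 0 → z₁ = 0 ∧ z₂ = 0)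

theorem card_GL1 : Nat.card (GL (Fin 1) K) = Nat.card K - 1 := by
  let _ := Fintype.ofFinite K
  have h := Matrix.card_GL_field (𝔽 := K) 1
  rw [h, Nat.card_eq_fintype_card]
  simp

/-- `O⁻₈(3)` -/
theorem ch_o8m3 (hK : Nat.card K = 3) : ∃ (χ : (CForm.minusF K 3 a b hab).iso → ℂ) (d : ℕ),
    IsIrrCharacter (CForm.minusF K 3 a b hab).iso χ ∧ χ 1 = (d : ℂ) ∧ 15 ∣ d := by
  classical
  obtain ⟨e, f, j, h⟩ := CForm.frm_minus (K := K) hab (k := 1) (n := 2) (m := 3) rfl
  obtain ⟨ψ, ψ', s, t, hψ, hψ', hψ1, hψ1', hs, ht, hsum, -⟩ := sum_minus K a b hab (l := 2) le_rfl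
  have := finite_iso (CForm.minusF K 2 a b hab)
  rw [hK] at hs ht
  norm_num at hs ht
  have es : s = 90 := by omega
  have et : t = 21 := by omega
  subst es
  subst et
  have hψq : ∀ g, ∃ q : ℚ, ψ g = q := rat_of_sum hψ hψ' hsum hψ1 hψ1' (by norm_num) (by norm_num)
  have hX : Nat.card ((Fin 2 ⊕ Fin 2) ⊕ Fin 2 → K) = 3 ^ 6 := by
    rw [Nat.card_fun, hK]
    simp
  have hU : Nat.card (CForm.Us (CForm.minusF K 3 a b hab) e) = 3 ^ 6 := by
    rw [card_Us1 h rfl (fun x => rfl) (fun x => rfl), hX]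
  have := finite_iso (CForm.minusF K 3 a b hab)
  let _ : Fintype (CForm.minusF K 3 a b hab).iso := Fintype.ofFinite _
  let _ : Fintype (stabW (CForm.minusF K 3 a b hab).iso.subtype (Submodule.span K (Set.range e))) :=
    Fintype.ofFinite _
  let _ : Fintype (CForm.Us (CForm.minusF K 3 a b hab) e) := Fintype.ofFinite _
  obtain ⟨w, hw1, hw2, hw3⟩ := h.exists_w
  have hcmp := h.cmp rfl
  obtain ⟨pr, hρ1, hρ2, hρ3⟩ := hcmp.exists_rho
  have hsurj : Function.Surjective pr := fun b => by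
    obtain ⟨g, hg, -⟩ := hρ3 1 b
    exact ⟨g, hg⟩
  obtain ⟨m, ρ₀, hρ₀, rfl⟩ := id hψ
  let bb : Basis (Fin 1) K (Submodule.span K (Set.range e)) := finBasisOfFinrankEq K _ h.mem_Om.2
  have hG : Nat.card (GL (Fin 1) K) = 2 := by rw [card_GL1, hK]
  obtain ⟨c, hc1, hcq⟩ := exists_sign hG
  have hcf : cfun c ≠ 1 := by
    intro h1
    apply hc1
    ext A
    exact congrFun h1 A
  have hone : IsCharacter (CForm.minusF K 2 a b hab).iso (fun _ => (1 : ℂ)) := Core.isIrr_isCharacter Core.isIrr_one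
  have hθ := Core.isCharacter_add hone (Core.isIrr_isCharacter hψ')
  obtain ⟨hn, A, c', d, χ₁, χ₂, ⟨h1, h2, -, h3, h4, h5, h6, h7⟩, -, hTT, hA2, -⟩ := h.two_data rfl one_pos rfl
    hw1 hw2 hw3 bb (c := c) (fun A => inv_of_two hG (φ := (CForm.minusF K 3 a b hab).iota 1)
      (CForm.minusF K 3 a b hab).iota_iota A) (isCusp_fin1 c) hcq hρ1 hρ2 hsurj ρ₀ hψ hψ1 hψq
    (fun W' hW' k1 k2 => CForm.van_pt1 hcmp (isIrr_cfun c) hcf (Core.isIrr_isCharacter hψ) hθ
      (fun g => by rw [hsum g, Pi.add_apply]; ring) hρ1 hρ2 h.mem_Om hW' k1 k2) Nat.prime_three hU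
  -- the number of points
  have hOm : Nat.card ((CForm.minusF K 3 a b hab).Om 1) = 1066 := by
    have h8 := (CForm.minusF K 3 a b hab).card_iso_eq h.mem_Om
    rw [h.card_par rfl, hU, hG, card_minusF, card_minusF, hK] at h8
    obtain ⟨n, hn⟩ : ∃ n, n = Nat.card ((CForm.minusF K 3 a b hab).Om 1) := ⟨_, rfl⟩
    rw [← hn] at h8 ⊢
    norm_num [Finset.prod_range_succ] at h8
    omega
  rw [hOm] at h5
  -- the element of order `7`
  have h7A : 7 ∣ A := by
    obtain ⟨t, ht⟩ : ∃ t : (CForm.minusF K 2 a b hab).iso, orderOf t = 7 := by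
      have : Fact (Nat.Prime 7) := ⟨by norm_num⟩
      refine exists_prime_orderOf_dvd_card' 7 ?_
      rw [card_minusF, hK]
      norm_num [Finset.prod_range_succ]
    obtain ⟨g, ge, gf, gj⟩ := glue1 h rfl t
    have gpow : ∀ n : ℕ, ((g ^ n : (CForm.minusF K 3 a b hab).iso) : _ ≃ₗ[K] _) (e 0) = e 0 ∧
        ((g ^ n : (CForm.minusF K 3 a b hab).iso) : _ ≃ₗ[K] _) (f 0) = f 0 ∧
        ∀ x, ((g ^ n : (CForm.minusF K 3 a b hab).iso) : _ ≃ₗ[K] _) (j x) =
          j (((t ^ n : (CForm.minusF K 2 a b hab).iso) : _ ≃ₗ[K] _) x) := by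
      intro n
      induction n with
      | zero => exact ⟨rfl, rfl, fun x => rfl⟩
      | succ n ih =>
        rw [pow_succ', pow_succ']
        refine ⟨?_, ?_, fun x => ?_⟩
        · rw [mul_apply', ih.1, ge]
        · rw [mul_apply', ih.2.1, gf]
        · rw [mul_apply', ih.2.2, gj, mul_apply']
    have hg7 : g ^ 7 = 1 := by
      have h8 := gpow 7
      refine ext1 h rfl h8.1 h8.2.1 fun x => ?_
      rw [h8.2.2, ← ht, pow_orderOf_eq_one]
      rfl
    have hgP : g ∈ stabW (CForm.minusF K 3 a b hab).iso.subtype (Submodule.span K (Set.range e)) := by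
      rw [mem_par]
      intro i
      rw [Subsingleton.elim i 0, ge]
      exact Submodule.subset_span ⟨0, rfl⟩
    have hwj : ∀ x, (w : _ ≃ₗ[K] _) (j x) = j x := fun x => hw3 _ (fun i => h.hje x i) (fun i => h.hjf x i)
    have hgw : g * w = w * g := by
      refine ext1 h rfl ?_ ?_ fun x => ?_
      · rw [mul_apply', mul_apply', hw1, ge, hw1, gf]
      · rw [mul_apply', mul_apply', hw2, gf, hw2, map_smul, ge]
      · rw [mul_apply', mul_apply', hwj, gj, hwj]
    have htc : orderOf (t : ((Fin 2 ⊕ Fin 2) ⊕ Fin 2 → K) ≃ₗ[K] ((Fin 2 ⊕ Fin 2) ⊕ Fin 2 → K)) = 7 := by rw [← ht]; exact Subgroup.orderOf_coe t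
    have hfix : ∀ v, (g : _ ≃ₗ[K] _) v = v → ∃ x y : K, v = x • e 0 + y • f 0 := by
      intro v hv
      obtain ⟨x, hx⟩ := dec1 h rfl v
      have h8 : (t : _ ≃ₗ[K] _) x = x := by
        apply h.hyp.inj
        rw [← gj]
        rw [hx, map_add, map_add, map_smul, map_smul, ge, gf] at hv
        exact add_left_cancel hv
      have h9 := fix_zero hK hX htc h8
      rw [h9, map_zero, add_zero] at hx
      exact ⟨_, _, hx⟩
    have hcU : ∀ u : CForm.Us (CForm.minusF K 3 a b hab) e, g * (u : (CForm.minusF K 3 a b hab).iso) = u * g →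
        u = 1 := by
      intro u hu
      have h8 : (g : _ ≃ₗ[K] _) (((u : (CForm.minusF K 3 a b hab).iso) : ((Fin 3 ⊕ Fin 3) ⊕ Fin 2 → K) ≃ₗ[K] ((Fin 3 ⊕ Fin 3) ⊕ Fin 2 → K)) (f 0)) =
          ((u : (CForm.minusF K 3 a b hab).iso) : ((Fin 3 ⊕ Fin 3) ⊕ Fin 2 → K) ≃ₗ[K] ((Fin 3 ⊕ Fin 3) ⊕ Fin 2 → K)) (f 0) := by
        rw [← mul_apply', hu, mul_apply', gf]
      obtain ⟨x, y, hxy⟩ := hfix _ h8
      have h9 : (CForm.minusF K 3 a b hab).Q (((u : (CForm.minusF K 3 a b hab).iso) : ((Fin 3 ⊕ Fin 3) ⊕ Fin 2 → K) ≃ₗ[K] ((Fin 3 ⊕ Fin 3) ⊕ Fin 2 → K)) (f 0)) = 0 := by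
        rw [(CForm.minusF K 3 a b hab).iso_Q, h.hQf]
      have h10 : (CForm.minusF K 3 a b hab).B (((u : (CForm.minusF K 3 a b hab).iso) : ((Fin 3 ⊕ Fin 3) ⊕ Fin 2 → K) ≃ₗ[K] ((Fin 3 ⊕ Fin 3) ⊕ Fin 2 → K)) (f 0)) (e 0) = 1 := by
        nth_rewrite 1 [← Us_e u.2 0]
        rw [(CForm.minusF K 3 a b hab).iso_B, h.hfe, if_pos rfl]
        rfl
      have hσ : ∀ x, (CForm.minusF K 3 a b hab).σ x = x := fun x => rfl
      have hT : ∀ x, (CForm.minusF K 3 a b hab).T x = x := fun x => rfl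
      rw [hxy, (CForm.minusF K 3 a b hab).B_add_left, (CForm.minusF K 3 a b hab).B_smul_left,
        (CForm.minusF K 3 a b hab).B_smul_left, h.hee, h.hfe, if_pos rfl] at h10
      have h11 : y = 1 := by
        have : x * 0 + y * (1 : K) = 1 := h10
        linear_combination this
      rw [hxy, (CForm.minusF K 3 a b hab).Q_add, (CForm.minusF K 3 a b hab).Q_smul,
        (CForm.minusF K 3 a b hab).Q_smul, h.hQe, h.hQf, hT, (CForm.minusF K 3 a b hab).B_smul_left,
        (CForm.minusF K 3 a b hab).B_smul_right, h.hef, if_pos rfl, hσ, h11] at h9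
      have h12 : x = 0 := by
        simp only [map_one, mul_zero, mul_one, zero_add] at h9
        exact h9
      apply Subtype.ext
      refine h.Us_eq_one u.2 fun i => ?_
      rw [Subsingleton.elim i 0, hxy, h12, h11, zero_smul, zero_add, one_smul]
      exact Submodule.subset_span ⟨0, rfl⟩
    obtain ⟨z, hz, hAz⟩ := hn.A_mod hTT (r := 7) (by norm_num) hgP hgP hg7 hg7 hgw hgw
    have hww : w * w = 1 := h.w_sq rfl hw1 hw2 hw3
    rw [Finset.sum_eq_zero ?hz0, zero_add] at hAz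
    case hz0 =>
      intro x hx
      simp only [Finset.mem_filter, Finset.mem_univ, true_and] at hx
      obtain ⟨hx1, hx2⟩ := hx
      have e1 := hcU x.1 hx1
      have e2 := hcU x.2 hx2
      rw [e1, e2, OneMemClass.coe_one, mul_one, mul_one, hww, one_mul]
      exact ext_apply_not_mem _ _ _ (fun h' => hn.wP (by simpa using Subgroup.inv_mem _ h'))
    have h90 : (crep bb c pr ρ₀).character 1 = 90 := by
      have e1 : (crep bb c pr ρ₀).character 1 = ρ₀.character 1 := by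
        rw [Representation.char_one, Representation.char_one]
      rw [e1, hψ1]
      norm_num
    rw [h90] at hAz
    obtain ⟨n, hn'⟩ := int_of_rat (z := z) hz (q := (A : ℚ) * 90 / 7) (by
      push_cast
      push_cast at hAz
      rw [eq_div_iff (by norm_num), hAz]
      ring)
    rw [hn'] at hAz
    have h8 : A * 90 = 7 * n := by exact_mod_cast hAz
    omega
  -- arithmetic
  refine ⟨χ₁, 3 ^ c' * d, h1, h3, ?_⟩
  obtain ⟨k, rfl⟩ := h7A
  interval_cases c'
  · omega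
  · exact absurd (h7 (by norm_num)) (by decide)
  · exfalso
    norm_num at hA2
    have h8 : (7 * k) ^ 2 = 49 * k ^ 2 := by ring
    rw [h8] at hA2
    obtain ⟨y, hy⟩ : ∃ y, y = k ^ 2 := ⟨_, rfl⟩
    rw [← hy] at hA2
    omega
  · exact absurd (h7 (by norm_num)) (by decide)
  · omega
  · exact absurd (h7 (by norm_num)) (by decide)
  · omega

include hab in
/-- **`PΩ⁻₈(3)` has an irreducible character of degree divisible by `15`** -/
theorem o8m_three (hK : Nat.card K = 3) : ∃ d, 15 ∣ d ∧ Ch (POmega K (quadFormMinus 3 K a b)) d := by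
  obtain ⟨p, hp⟩ := CharP.exists K
  have hpr : p.Prime := (CharP.char_is_prime_or_zero K p).resolve_right (CharP.char_ne_zero_of_finite K p)
  have : Fact p.Prime := ⟨hpr⟩
  obtain ⟨χ, d, hχ, hχ1, h15⟩ := ch_o8m3 K a b hab hK
  obtain ⟨t, ht, hidx, -⟩ := minus_t K a b hab (l := 3) le_rfl
  obtain ⟨e, i, h3, h4, h5, h6⟩ := minus_down3 K (p := p) a b hab hidx hχ hχ1
  refine ⟨e, ?_, h3⟩
  rw [h4] at h15
  exact Nat.Coprime.dvd_of_dvd_mul_right (Nat.Coprime.pow_right _ (by norm_num)) h15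

end main

end Cfsg.Agent.H722.HC
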